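import Cfsg.Agent.H483.HT.V1
import Cfsg.Agent.H316.HT.Defs
import Cfsg.Agent.Schreier.Ru
import Cfsg.Agent.UGT.C.BalONTab
import Cfsg.Agent.S1699

/-!
# S4933: the rows of `Ru` and `O'N` at the prime 2 (helper597)

The Sylow 2-subgroups are not metabelian.
-/

set_option autoImplicit false
set_option maxRecDepth 100000

namespace Cfsg.Agent.H597.HT

open Cfsg Subgroup
open Cfsg.Agent.H483.HT Cfsg.Agent.H316.HT
open scoped commutatorElement

universe v

theorem row_of_nv {p : ℕ} [Fact p.Prime] {S : Type v} [Group S] (h : NV p S) : Row p S := by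
  intro A _ _ N _ hN _ M _ P a ha hcd
  obtain ⟨e⟩ := hN
  exact (NV.vacuous' (NV.of_subgroup (h.congr e.symm)) P ha hcd.1 hcd.2).elim

/-! ### The Rudvalis group -/

section

open Cfsg.Agent.Schreier.RuSyl

theorem nv_H : NV 2 Cfsg.Agent.SporadicB.RuOrder.H := by
  refine ⟨T, Cfsg.Agent.Schreier.RuTr.isPGroup_T, L 1, L_mem_T 1, L 2, L_mem_T 2, L 0, L_mem_T 0, L 2, L_mem_T 2, ?_⟩
  have h1 : ⁅L 1, L 2⁆ = W [1, 2, 1, 2] := by
    rw [commutatorElement_def, inv_eq_of_mul_eq_one_left (L_sq 1 (by norm_num)),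
      inv_eq_of_mul_eq_one_left (L_sq 2 (by norm_num))]
    simp only [W_cons, W_nil, mul_one, mul_assoc]
  have h2 : ⁅L 0, L 2⁆ = W [0, 2, 0, 2] := by
    rw [commutatorElement_def, inv_eq_of_mul_eq_one_left (L_sq 0 (by norm_num)),
      inv_eq_of_mul_eq_one_left (L_sq 2 (by norm_num))]
    simp only [W_cons, W_nil, mul_one, mul_assoc]
  rw [h1, h2]
  intro h
  have h3 : W ([1, 2, 1, 2] ++ [0, 2, 0, 2]) = W ([0, 2, 0, 2] ++ [1, 2, 1, 2]) := by
    rw [W_append, W_append]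
    exact commutatorElement_eq_one_iff_mul_comm.1 h
  have key : ∀ p : Fin 4060, ev ([1, 2, 1, 2] ++ [0, 2, 0, 2]) p = ev ([0, 2, 0, 2] ++ [1, 2, 1, 2]) p := by
    intro p
    rw [← W_apply, ← W_apply, h3]
  have hne : ¬ ∀ p ∈ ([0, 29, 580, 577] : List ℕ), ev ([1, 2, 1, 2] ++ [0, 2, 0, 2]) p =
    ev ([0, 2, 0, 2] ++ [1, 2, 1, 2]) p := by decide +kernel
  apply hne
  intro p hp
  simp only [List.mem_cons, List.not_mem_nil, or_false] at hp
  rcases hp with rfl | rfl | rfl | rfl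
  · exact key ⟨0, by norm_num⟩
  · exact key ⟨29, by norm_num⟩
  · exact key ⟨580, by norm_num⟩
  · exact key ⟨577, by norm_num⟩

end

theorem nv_Ru : NV 2 Cfsg.Spor.Ru := nv_H.congr Cfsg.Agent.RuLat.Main.equiv.symm

/-- **the row of `Ru`** -/
theorem ru_2 (K : Type) [Group K] [Finite K] [IsSimpleGroup K] (_ : ¬ IsMulCommutative K) (h : Spor.IsoRu K) :
    Row 2 K := by
  obtain ⟨e⟩ := h
  exact row_of_nv (nv_Ru.congr e.symm)

/-! ### The O'Nan group -/

section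

open Cfsg.Agent.UGT.C.PcTab Cfsg.Agent.UGT.C.BalONTab Cfsg.Agent.Schreier.ONRel

theorem relsON (hs : IsSimpleGroup Spor.ON) : Rels s 9 sq cj :=
  ⟨fun _ hk => s_sq hs hk, fun _ hk _ hi => s_cj hs hk hi, sq_lt, cj_lt⟩

/-- the element with the code `x` -/
noncomputable def EO (x : ℕ) : Spor.ON := ev s x 9

theorem EO_inj (hs : IsSimpleGroup Spor.ON) {x y : ℕ} (hx : x < 512) (hy : y < 512) (h : EO x = EO y) : x = y :=
  code_inj (relsON hs) le_rfl (Cfsg.Agent.Schreier.ONTr.card_T hs) hx hy h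

theorem EO_mul (hs : IsSimpleGroup Spor.ON) {x : ℕ} (hx : x < 512) (y : ℕ) : EO x * EO y = EO (mu x y) :=
  mul_eq (relsON hs) rules hx y

theorem comm_EO (hs : IsSimpleGroup Spor.ON) {a b u ba ub : ℕ} (ha : a < 512) (hb : b < 512) (hu : u < 512)
    (h1 : mu b a = ba) (h2 : mu u ba = ub) (h3 : mu a b = ub) : ⁅EO a, EO b⁆ = EO u := by
  have e1 : EO u * (EO b * EO a) = EO a * EO b := by
    rw [EO_mul hs hb, h1, EO_mul hs hu, h2, EO_mul hs ha, h3]
  rw [commutatorElement_def]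
  calc EO a * EO b * (EO a)⁻¹ * (EO b)⁻¹ = EO a * EO b * (EO b * EO a)⁻¹ := by group
    _ = EO u := by rw [← e1]; group

theorem nv_ON : NV 2 Spor.ON := by
  have hs : IsSimpleGroup Spor.ON := Cfsg.Agent.S1699.result.1
  refine ⟨Cfsg.Agent.Schreier.ONTr.T, Cfsg.Agent.Schreier.ONTr.isPGroup_T hs, EO 16, ev_mem s 16 9, EO 64, ev_mem s 64 9,
    EO 128, ev_mem s 128 9, EO 256, ev_mem s 256 9, ?_⟩
  have h1 : mu 64 16 = 93 ∧ mu 12 93 = 80 ∧ mu 16 64 = 80 ∧ mu 256 128 = 409 ∧ mu 29 409 = 384 ∧ mu 128 256 = 384 ∧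
      mu 12 29 = 16 ∧ mu 29 12 = 17 := by decide +kernel
  obtain ⟨c1, c2, c3, c4, c5, c6, c7, c8⟩ := h1
  rw [comm_EO hs (by norm_num) (by norm_num) (u := 12) (by norm_num) c1 c2 c3,
    comm_EO hs (by norm_num) (by norm_num) (u := 29) (by norm_num) c4 c5 c6]
  intro h
  have h2 := commutatorElement_eq_one_iff_mul_comm.1 h
  rw [EO_mul hs (by norm_num), EO_mul hs (by norm_num), c7, c8] at h2
  exact absurd (EO_inj hs (by norm_num) (by norm_num) h2) (by norm_num)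

/-- **the row of `O'N`** -/
theorem on_2 (K : Type) [Group K] [Finite K] [IsSimpleGroup K] (_ : ¬ IsMulCommutative K) (h : Spor.IsoON K) :
    Row 2 K := by
  obtain ⟨e⟩ := h
  exact row_of_nv (nv_ON.congr e.symm)

end

end Cfsg.Agent.H597.HT
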