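import Mathlib

/-!
# S4933, PART A of the box Co2.5: the transfer lemma in the centraliser of a noncentral element (helper597)

`C` has Sylow `p`-subgroups of order `p ^ 2`, `a` is central of order `p`, `z` another element of order `p` of the Sylow
`p`-subgroup `S`, `X` a normal set of elements of order `p` meeting `S` in `⟨z⟩ - 1`.  Then the elements of `X` are the elements
of order `p` of a subgroup `L` with Sylow `p`-subgroups of order `p`.
-/

set_option autoImplicit false

namespace Cfsg.Agent.H597.HT.TransL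

open Subgroup

universe u

theorem mem_of_pow_mem {C : Type u} [Group C] [Finite C] {p n : ℕ} [hp : Fact p.Prime] {x : C} (hx : orderOf x = p) (hn : ¬ p ∣ n)
    {K : Subgroup C} (h : x ^ n ∈ K) : x ∈ K := by
  have h1 : Nat.Coprime (orderOf x) n := by
    rw [hx]
    exact (hp.out.coprime_iff_not_dvd).2 hn
  have h2 : x ∈ Subgroup.zpowers (x ^ n) := by
    have h3 : orderOf (x ^ n) = orderOf x := (Nat.Coprime.orderOf_pow h1)
    have h4 : Subgroup.zpowers (x ^ n) = Subgroup.zpowers x := by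
      apply Subgroup.eq_of_le_of_card_ge
      · rw [Subgroup.zpowers_le]
        exact Subgroup.npow_mem_zpowers x n
      · rw [Nat.card_zpowers, Nat.card_zpowers, h3]
    rw [h4]
    exact Subgroup.mem_zpowers x
  exact (Subgroup.zpowers_le.2 h) h2

theorem exists_L {C : Type u} [Group C] [Finite C] {p m : ℕ} [Fact p.Prime] (hC : Nat.card C = p ^ 2 * m) (hm : ¬ p ∣ m)
    {a z : C} (ha : orderOf a = p) (hz : orderOf z = p) (hac : ∀ g : C, a * g = g * a) (haz : a ∉ Subgroup.zpowers z)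
    (S : Subgroup C) (hS : Nat.card S = p ^ 2) (haS : a ∈ S) (hzS : z ∈ S) (X : Set C)
    (hXc : ∀ x ∈ X, ∀ g : C, g * x * g⁻¹ ∈ X) (hXo : ∀ x ∈ X, orderOf x = p)
    (hXS : ∀ x ∈ X, x ∈ S → x ∈ Subgroup.zpowers z) (hXz : ∀ k : ℕ, ¬ p ∣ k → z ^ k ∈ X) :
    ∃ L : Subgroup C, (∃ l : ℕ, Nat.card L = p * l ∧ ¬ p ∣ l) ∧ (∀ x ∈ X, x ∈ L) ∧ ∀ x ∈ L, orderOf x = p → x ∈ X := by
  classical
  have hp : p.Prime := Fact.out
  have hcomm : ∀ x y : S, x * y = y * x := fun x y =>
    (IsPGroup.commGroupOfCardEqPrimeSq hS).mul_comm x y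
  let _ : CommGroup S := { (inferInstance : Group S) with mul_comm := hcomm }
  let Z0 : Subgroup S := Subgroup.zpowers ⟨z, hzS⟩
  let φ : S →* S ⧸ Z0 := QuotientGroup.mk' Z0
  have hφ : ∀ s : S, (s : C) ∈ Subgroup.zpowers z → φ s = 1 := by
    intro s hs
    obtain ⟨k, hk⟩ := Subgroup.mem_zpowers_iff.1 hs
    refine (QuotientGroup.eq_one_iff s).2 (Subgroup.mem_zpowers_iff.2 ⟨k, Subtype.ext ?_⟩)
    rw [← hk]
    rfl
  have hφ' : ∀ s : S, φ s = 1 → (s : C) ∈ Subgroup.zpowers z := by
    intro s hs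
    obtain ⟨k, hk⟩ := Subgroup.mem_zpowers_iff.1 ((QuotientGroup.eq_one_iff s).1 hs)
    refine Subgroup.mem_zpowers_iff.2 ⟨k, ?_⟩
    rw [← hk]
    rfl
  let T : C →* S ⧸ Z0 := MonoidHom.transfer φ
  have hX : ∀ x ∈ X, T x = 1 := by
    intro x hx
    have : Fintype (Quotient (MulAction.orbitRel (Subgroup.zpowers x) (C ⧸ S))) := Fintype.ofFinite _
    show MonoidHom.transfer φ x = 1
    rw [MonoidHom.transfer_eq_prod_quotient_orbitRel_zpowers_quot]
    refine Finset.prod_eq_one fun q _ => hφ _ ?_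
    have hmem := QuotientGroup.out_conj_pow_minimalPeriod_mem S x q.out
    show q.out.out⁻¹ * x ^ Function.minimalPeriod (x • ·) q.out * q.out.out ∈ Subgroup.zpowers z
    generalize Function.minimalPeriod (x • ·) q.out = n at hmem ⊢
    generalize q.out.out = g at hmem ⊢
    by_cases hn : p ∣ n
    · have h1 : x ^ n = 1 := by
        rw [← orderOf_dvd_iff_pow_eq_one, hXo x hx]
        exact hn
      rw [h1, mul_one, inv_mul_cancel]
      exact Subgroup.one_mem _
    · have h1 : g⁻¹ * x ^ n * g = (g⁻¹ * x * g) ^ n := by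
        have := conj_pow (i := n) (a := g⁻¹) (b := x)
        rw [inv_inv] at this
        exact this.symm
      have h2 : g⁻¹ * x * g ∈ X := by
        have := hXc x hx g⁻¹
        rwa [inv_inv] at this
      rw [h1] at hmem ⊢
      exact Subgroup.pow_mem _ (hXS _ h2 (mem_of_pow_mem (hXo _ h2) hn hmem)) n
  have hind : S.index = m := by
    have h1 := S.card_mul_index
    rw [hC, hS] at h1
    exact Nat.eq_of_mul_eq_mul_left (pow_pos hp.pos 2) h1
  have hTa : T a ≠ 1 := by
    intro h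
    have key : ∀ (k : ℕ) (g₀ : C), g₀⁻¹ * a ^ k * g₀ ∈ S → g₀⁻¹ * a ^ k * g₀ = a ^ k := by
      intro k g₀ _
      have h1 : Commute (a ^ k) g₀ := Commute.pow_left (hac g₀) k
      rw [mul_assoc, h1.eq, inv_mul_cancel_left]
    have h1 : T a = φ ⟨a ^ S.index, MonoidHom.transfer_eq_pow_aux a key⟩ := MonoidHom.transfer_eq_pow φ a key
    rw [h] at h1
    have h2 := hφ' _ h1.symm
    have h3 : a ^ S.index ∈ Subgroup.zpowers z := h2
    rw [hind] at h3
    exact haz (mem_of_pow_mem ha hm h3)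
  have hZ0 : Nat.card Z0 = p := by
    rw [Nat.card_zpowers, ← hz]
    exact Subgroup.orderOf_mk z hzS
  have hQ : Nat.card (S ⧸ Z0) = p := by
    have h1 := Z0.card_eq_card_quotient_mul_card_subgroup
    rw [hS, hZ0, pow_two] at h1
    exact (Nat.eq_of_mul_eq_mul_right hp.pos h1).symm
  have hL : Nat.card T.ker = p * m := by
    have h1 : Nat.card T.range = p := by
      have h2 : Nat.card T.range ∣ p := hQ ▸ Subgroup.card_subgroup_dvd_card T.range
      rcases (Nat.dvd_prime hp).1 h2 with h3 | h3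
      · exfalso
        apply hTa
        have h4 : T.range = ⊥ := Subgroup.card_eq_one.1 h3
        have h5 : T a ∈ T.range := ⟨a, rfl⟩
        rw [h4] at h5
        exact Subgroup.mem_bot.1 h5
      · exact h3
    have h2 := T.ker.card_mul_index
    rw [Subgroup.index_ker, h1, hC] at h2
    have h3 : Nat.card T.ker * p = (p * m) * p := by rw [h2]; ring
    exact Nat.eq_of_mul_eq_mul_right hp.pos h3
  refine ⟨T.ker, ⟨m, hL, hm⟩, fun x hx => T.mem_ker.2 (hX x hx), ?_⟩
  intro y hy hyo
  have hzX : z ∈ X := by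
    have := hXz 1 (fun h => hp.one_lt.ne' (Nat.dvd_one.1 h))
    rwa [pow_one] at this
  have hzL : z ∈ T.ker := T.mem_ker.2 (hX z hzX)
  have hfac : Nat.card T.ker = p ^ 1 * m := by rw [hL, pow_one]
  let y' : T.ker := ⟨y, hy⟩
  let z' : T.ker := ⟨z, hzL⟩
  have hyo' : orderOf y' = p := by rw [← hyo]; exact Subgroup.orderOf_mk y hy
  have hzo' : orderOf z' = p := by rw [← hz]; exact Subgroup.orderOf_mk z hzL
  have hfz : (Nat.card T.ker).factorization p = 1 := by
    rw [hL, Nat.factorization_mul hp.ne_zero (fun h => hm (by rw [h]; exact dvd_zero p)), Finsupp.add_apply,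
      hp.factorization_self, Nat.factorization_eq_zero_of_not_dvd hm]
  let P : Sylow p T.ker := Sylow.ofCard (Subgroup.zpowers y') (by rw [Nat.card_zpowers, hyo', hfz, pow_one])
  let Q : Sylow p T.ker := Sylow.ofCard (Subgroup.zpowers z') (by rw [Nat.card_zpowers, hzo', hfz, pow_one])
  obtain ⟨g, hg⟩ := MulAction.exists_smul_eq T.ker P Q
  have h1 : g * y' * g⁻¹ ∈ (Q : Subgroup T.ker) := by
    rw [← hg]
    have h2 : y' ∈ (P : Subgroup T.ker) := Subgroup.mem_zpowers y'
    rw [Sylow.smul_def]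
    exact Subgroup.smul_mem_pointwise_smul _ (MulAut.conj g) _ h2
  have h3 : g * y' * g⁻¹ ∈ Subgroup.zpowers z' := h1
  obtain ⟨k, hk⟩ := (mem_powers_iff_mem_zpowers.2 h3)
  have hk' : z ^ k = g * y * (g : C)⁻¹ := by
    have := congrArg (Subtype.val) hk
    simpa using this
  have hpk : ¬ p ∣ k := by
    intro hd
    have h4 : z ^ k = 1 := by rw [← orderOf_dvd_iff_pow_eq_one, hz]; exact hd
    rw [h4] at hk'
    have h5 : y = 1 := by
      have h6 : (g : C) * y = g := by
        have := congrArg (· * (g : C)) hk'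
        simpa using this.symm
      exact mul_eq_left.1 h6
    rw [h5, orderOf_one] at hyo
    exact hp.one_lt.ne hyo
  have h4 := hXc _ (hXz k hpk) (g : C)⁻¹
  rw [hk', inv_inv] at h4
  have h5 : (g : C)⁻¹ * (g * y * (g : C)⁻¹) * g = y := by group
  rwa [h5] at h4

end Cfsg.Agent.H597.HT.TransL
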